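import Cfsg.Agent.H518.E83.Singer
import Cfsg.Agent.H908.E8L.BConj

/-!
# The matrices of `H518.E83` are those of `H908.E8L`
-/

set_option autoImplicit false

namespace Cfsg.Agent.H518.E83

theorem Mo_eq : Mo = Cfsg.Agent.H908.E8L.Mo := Subtype.ext (show mMo = Cfsg.Agent.H908.E8L.MoM by decide +kernel)
theorem Si_eq : Si = Cfsg.Agent.H908.E8L.Sg := Subtype.ext (show mSi = Cfsg.Agent.H908.E8L.SgM by decide +kernel)

open Matrix in
/-- `singer` for `H908.E8L.Sg` -/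
theorem singer' {k : Type*} [Field k] [CharP k 3] [IsAlgClosed k] (f : ZMod 3 →+* k) :
    ∃ (Z : SpecialLinearGroup (Fin 5) k) (ζ : k) (c : Fin 5 → k),
    IsPrimitiveRoot ζ 121 ∧
    (Z⁻¹ * SpecialLinearGroup.map f Cfsg.Agent.H908.E8L.Sg * Z : SpecialLinearGroup (Fin 5) k).1 =
      Matrix.diagonal (fun i : Fin 5 => ζ ^ 3 ^ (i : ℕ)) ∧
    (∀ j, c j ≠ 0) ∧
    (Z⁻¹ * SpecialLinearGroup.map (frobenius k 3) Z : SpecialLinearGroup (Fin 5) k).1 =
      Matrix.of fun i j => if i = j + 1 then c j else 0 := by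
  rw [← Si_eq]
  exact singer f

end Cfsg.Agent.H518.E83
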