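import Mathlib

/-!
# The Singer element of `SL₅(3)` (S5925, box B (a'))

* `Mo` : the element of order 11 of the frame (`tools/plans/S5925_code/frame.txt`);
* `Si` : the Singer element, `Si ^ 11 = Mo`, `Si ^ 121 = 1`, `orderOf Si = 121`;
* `singer` : over every field `k` of characteristic 3 in which `X ^ 5 + X ^ 3 + X - 1` has a root there are a primitive
  121st root of unity `ζ` and `Z : SL₅(k)` with `Z⁻¹ Si Z = diag (ζ ^ 3 ^ i)`, and `Z⁻¹ Z^(3)` maps the line `i` to the
  line `i + 1` (`IsMono`).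
-/

set_option autoImplicit false
set_option linter.unusedSectionVars false

namespace Cfsg.Agent.H518.E83

open Matrix

/-- the element of order 11 (matrix) -/
def mMo : Matrix (Fin 5) (Fin 5) (ZMod 3) :=
  !![1, 0, 1, 1, 2; 1, 1, 2, 0, 2; 2, 1, 1, 2, 0; 2, 2, 1, 1, 2; 0, 2, 2, 1, 1]

/-- the Singer matrix -/
def mSi : Matrix (Fin 5) (Fin 5) (ZMod 3) :=
  !![0, 0, 0, 2, 0; 0, 0, 0, 1, 2; 1, 0, 0, 0, 1; 0, 1, 0, 0, 0; 0, 0, 1, 0, 0]

/-- the Krylov basis -/
def mB : Matrix (Fin 5) (Fin 5) (ZMod 3) :=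
  !![0, 0, 0, 1, 0; 0, 2, 0, 1, 0; 0, 1, 0, 1, 1; 0, 0, 2, 0, 1; 1, 0, 1, 0, 1]

/-- its inverse -/
def mC : Matrix (Fin 5) (Fin 5) (ZMod 3) :=
  !![1, 1, 1, 1, 1; 1, 2, 0, 0, 0; 1, 1, 1, 2, 0; 1, 0, 0, 0, 0; 1, 1, 1, 0, 0]

/-- the companion matrix of `X ^ 5 + X ^ 3 + X - 1` -/
def mK : Matrix (Fin 5) (Fin 5) (ZMod 3) :=
  !![0, 0, 0, 0, 1; 1, 0, 0, 0, 2; 0, 1, 0, 0, 0; 0, 0, 1, 0, 2; 0, 0, 0, 1, 0]

/-- the inverse of `mMo - 1` -/
def mJ : Matrix (Fin 5) (Fin 5) (ZMod 3) :=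
  !![1, 1, 2, 1, 1; 2, 0, 2, 1, 0; 2, 2, 0, 2, 1; 1, 2, 2, 0, 2; 2, 1, 2, 2, 0]

theorem mC_mSi : mC * mSi = mK * mC := by decide +kernel
theorem mB_mC : mB * mC = 1 := by decide +kernel
theorem mC_mB : mC * mB = 1 := by decide +kernel
theorem mJ_eq : (mMo - 1) * mJ = 1 := by decide +kernel

theorem mSi_det : mSi.det = 1 := by
  rw [mSi]
  simp [Matrix.det_succ_row_zero, Fin.sum_univ_succ]
  decide +kernel

theorem mMo_det : mMo.det = 1 := by
  rw [mMo]
  simp [Matrix.det_succ_row_zero, Fin.sum_univ_succ]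
  decide +kernel

theorem mSi_pow : mSi ^ 11 = mMo := by decide +kernel
theorem mMo_pow : mMo ^ 11 = 1 := by decide +kernel

/-- the element of order 11 of the frame -/
def Mo : SpecialLinearGroup (Fin 5) (ZMod 3) := ⟨mMo, mMo_det⟩

/-- the Singer element -/
def Si : SpecialLinearGroup (Fin 5) (ZMod 3) := ⟨mSi, mSi_det⟩

theorem Si_pow : Si ^ 11 = Mo := Subtype.ext ((Matrix.SpecialLinearGroup.coe_pow Si 11).trans mSi_pow)
theorem Mo_pow : Mo ^ 11 = 1 := Subtype.ext ((Matrix.SpecialLinearGroup.coe_pow Mo 11).trans mMo_pow)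
theorem Si_pow' : Si ^ 121 = 1 := by
  rw [show 121 = 11 * 11 from rfl, pow_mul, Si_pow, Mo_pow]
theorem Mo_ne : Mo ≠ 1 := fun h => by
  have h1 : mMo = 1 := congrArg Subtype.val h
  revert h1
  decide +kernel
theorem orderOf_Mo : orderOf Mo = 11 := orderOf_eq_prime (hp := ⟨by norm_num⟩) Mo_pow Mo_ne
theorem orderOf_Si : orderOf Si = 121 := by
  have h1 : orderOf Si ∣ 11 ^ 2 := orderOf_dvd_of_pow_eq_one Si_pow'
  obtain ⟨m, hm, h2⟩ := (Nat.dvd_prime_pow (by norm_num)).1 h1
  interval_cases m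
  · rw [pow_zero, orderOf_eq_one_iff] at h2
    exact absurd (by rw [← Si_pow, h2, one_pow]) Mo_ne
  · rw [pow_one] at h2
    exact absurd (by rw [← Si_pow, ← h2, pow_orderOf_eq_one]) Mo_ne
  · rw [h2]; norm_num

theorem mK_pow : mK ^ 121 = 1 := by
  have h : mK ^ 11 = mC * mMo * mB := by decide +kernel
  have h1 : mK ^ 121 = (mK ^ 11) ^ 11 := by rw [← pow_mul]
  rw [h1, h]
  decide +kernel

theorem mK_inv : (mK ^ 11 - 1) * (mC * mJ * mB) = 1 := by decide +kernel

section

variable {k : Type*} [Field k] [CharP k 3] (f : ZMod 3 →+* k)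

/-- the equation of `ζ` -/
def Root (x : k) : Prop := x ^ 5 = 1 + 2 * x + 2 * x ^ 3

theorem Root.cube {x : k} (h : Root x) : Root (x ^ 3) := by
  have h1 := congrArg (frobenius k 3) h
  simp only [map_add, map_mul, map_pow, map_one, map_ofNat, frobenius_def] at h1
  exact h1

theorem Root.pow3 {x : k} (h : Root x) (i : ℕ) : Root (x ^ 3 ^ i) := by
  induction i with
  | zero => simpa using h
  | succ i ih =>
    rw [pow_succ, pow_mul]
    exact ih.cube

omit [CharP k 3] in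
/-- the row vector `(1, x, .., x⁴)` is a left eigenvector of the companion matrix -/
theorem Root.vec {x : k} (h : Root x) (j : Fin 5) : ∑ l : Fin 5, x ^ (l : ℕ) * f (mK l j) = x * x ^ (j : ℕ) := by
  unfold Root at h
  rw [Fin.sum_univ_five]
  fin_cases j <;> simp [mK, map_ofNat] <;> first | ring1 | linear_combination (-1 : k) * h

omit [CharP k 3] in
/-- the row vector is an eigenvector of the powers -/
theorem Root.vec_pow {x : k} (h : Root x) (n : ℕ) (j : Fin 5) :
    ∑ l : Fin 5, x ^ (l : ℕ) * f ((mK ^ n) l j) = x ^ n * x ^ (j : ℕ) := by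
  induction n generalizing j with
  | zero =>
    rw [pow_zero, pow_zero, one_mul, Finset.sum_eq_single j]
    · rw [Matrix.one_apply_eq, map_one, mul_one]
    · intro l _ hl
      rw [Matrix.one_apply_ne hl, map_zero, mul_zero]
    · intro h
      exact absurd (Finset.mem_univ j) h
  | succ n ih =>
    have e1 : ∀ l : Fin 5, x ^ (l : ℕ) * f ((mK ^ (n + 1)) l j) =
        ∑ m : Fin 5, (x ^ (l : ℕ) * f ((mK ^ n) l m)) * f (mK m j) := by
      intro l
      rw [pow_succ, Matrix.mul_apply, map_sum, Finset.mul_sum]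
      exact Finset.sum_congr rfl fun m _ => by rw [map_mul]; ring
    calc ∑ l : Fin 5, x ^ (l : ℕ) * f ((mK ^ (n + 1)) l j)
        = ∑ l : Fin 5, ∑ m : Fin 5, (x ^ (l : ℕ) * f ((mK ^ n) l m)) * f (mK m j) :=
          Finset.sum_congr rfl fun l _ => e1 l
      _ = ∑ m : Fin 5, (∑ l : Fin 5, x ^ (l : ℕ) * f ((mK ^ n) l m)) * f (mK m j) := by
          rw [Finset.sum_comm]
          exact Finset.sum_congr rfl fun m _ => by rw [Finset.sum_mul]
      _ = x ^ n * ∑ m : Fin 5, x ^ (m : ℕ) * f (mK m j) := by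
          rw [Finset.mul_sum]
          exact Finset.sum_congr rfl fun m _ => by rw [ih m]; ring
      _ = _ := by rw [h.vec f j]; ring

theorem Root.pow_eq {x : k} (f : ZMod 3 →+* k) (h : Root x) : x ^ 121 = 1 := by
  have h1 := h.vec_pow f 121 0
  rw [mK_pow, Finset.sum_eq_single 0] at h1
  · rw [Matrix.one_apply_eq, map_one, mul_one] at h1
    simpa using h1.symm
  · intro l _ hl
    rw [Matrix.one_apply_ne hl, map_zero, mul_zero]
  · intro h
    exact absurd (Finset.mem_univ _) h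

theorem Root.pow_ne {x : k} (f : ZMod 3 →+* k) (h : Root x) : x ^ 11 ≠ 1 := by
  intro h0
  have h1 : ∀ j : Fin 5, ∑ l : Fin 5, x ^ (l : ℕ) * f ((mK ^ 11 - 1 : Matrix (Fin 5) (Fin 5) (ZMod 3)) l j) = 0 := by
    intro j
    have h2 := h.vec_pow f 11 j
    rw [h0, one_mul] at h2
    have h3 : ∑ l : Fin 5, x ^ (l : ℕ) * f ((1 : Matrix (Fin 5) (Fin 5) (ZMod 3)) l j) = x ^ (j : ℕ) := by
      rw [Finset.sum_eq_single j]
      · rw [Matrix.one_apply_eq, map_one, mul_one]
      · intro l _ hl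
        rw [Matrix.one_apply_ne hl, map_zero, mul_zero]
      · intro h
        exact absurd (Finset.mem_univ _) h
    calc ∑ l : Fin 5, x ^ (l : ℕ) * f ((mK ^ 11 - 1 : Matrix (Fin 5) (Fin 5) (ZMod 3)) l j)
        = ∑ l : Fin 5, (x ^ (l : ℕ) * f ((mK ^ 11) l j) -
            x ^ (l : ℕ) * f ((1 : Matrix (Fin 5) (Fin 5) (ZMod 3)) l j)) :=
          Finset.sum_congr rfl fun l _ => by rw [Matrix.sub_apply, map_sub, mul_sub]
      _ = 0 := by rw [Finset.sum_sub_distrib, h2, h3, sub_self]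
  have h4 : ∑ l : Fin 5, x ^ (l : ℕ) *
      f (((mK ^ 11 - 1 : Matrix (Fin 5) (Fin 5) (ZMod 3)) * (mC * mJ * mB)) l 0) = 0 := by
    calc _ = ∑ l : Fin 5, ∑ m : Fin 5, (x ^ (l : ℕ) * f ((mK ^ 11 - 1 : Matrix (Fin 5) (Fin 5) (ZMod 3)) l m)) *
          f ((mC * mJ * mB) m 0) := by
          refine Finset.sum_congr rfl fun l _ => ?_
          rw [Matrix.mul_apply, map_sum, Finset.mul_sum]
          exact Finset.sum_congr rfl fun m _ => by rw [map_mul]; ring
      _ = ∑ m : Fin 5, (∑ l : Fin 5, x ^ (l : ℕ) * f ((mK ^ 11 - 1 : Matrix (Fin 5) (Fin 5) (ZMod 3)) l m)) *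
          f ((mC * mJ * mB) m 0) := by
          rw [Finset.sum_comm]
          exact Finset.sum_congr rfl fun m _ => by rw [Finset.sum_mul]
      _ = 0 := Finset.sum_eq_zero fun m _ => by rw [h1 m, zero_mul]
  rw [mK_inv, Finset.sum_eq_single 0] at h4
  · rw [Matrix.one_apply_eq, map_one, mul_one] at h4
    simp at h4
  · intro l _ hl
    rw [Matrix.one_apply_ne hl, map_zero, mul_zero]
  · intro h
    exact absurd (Finset.mem_univ _) h

theorem Root.prim {x : k} (f : ZMod 3 →+* k) (h : Root x) : IsPrimitiveRoot x 121 := by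
  have h1 : orderOf x ∣ 11 ^ 2 := orderOf_dvd_of_pow_eq_one (h.pow_eq f)
  obtain ⟨m, hm, h2⟩ := (Nat.dvd_prime_pow (by norm_num)).1 h1
  have h3 : orderOf x = 121 := by
    interval_cases m
    · rw [pow_zero, orderOf_eq_one_iff] at h2
      exact absurd (by rw [h2, one_pow]) (h.pow_ne f)
    · rw [pow_one] at h2
      exact absurd (by rw [← h2, pow_orderOf_eq_one]) (h.pow_ne f)
    · rw [h2]; norm_num
  rw [← h3]
  exact IsPrimitiveRoot.orderOf x

omit [CharP k 3] in
theorem exists_root [IsAlgClosed k] : ∃ x : k, Root x := by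
  have hdeg : (Polynomial.X ^ 5 - (2 * Polynomial.X ^ 3 + 2 * Polynomial.X + 1) : Polynomial k).degree = 5 := by
    have h1 : (2 * Polynomial.X ^ 3 + 2 * Polynomial.X + 1 : Polynomial k).degree < 5 := by
      compute_degree!
    rw [Polynomial.degree_sub_eq_left_of_degree_lt] <;> rw [Polynomial.degree_X_pow]
    · rfl
    · exact_mod_cast h1
  obtain ⟨x, hx⟩ := IsAlgClosed.exists_root
    (Polynomial.X ^ 5 - (2 * Polynomial.X ^ 3 + 2 * Polynomial.X + 1) : Polynomial k) (by rw [hdeg]; decide)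
  refine ⟨x, ?_⟩
  simp [Polynomial.IsRoot.def] at hx
  unfold Root
  linear_combination hx

/-! ### the eigenbasis -/

/-- the conjugates -/
def zt (x : k) (i : Fin 5) : k := x ^ 3 ^ (i : ℕ)

theorem zt_inj {x : k} (f : ZMod 3 →+* k) (h : Root x) : Function.Injective (zt x) := by
  intro i j hij
  have hlt : ∀ i : Fin 5, 3 ^ (i : ℕ) < 121 := by decide
  have h1 := (h.prim f).pow_inj (hlt i) (hlt j) hij
  exact Fin.ext (Nat.pow_right_injective (le_refl 2 |>.trans (by norm_num)) h1)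

theorem zt_cube {x : k} (f : ZMod 3 →+* k) (h : Root x) (i : Fin 5) : zt x i ^ 3 = zt x (i + 1) := by
  have h1 : x ^ 3 ^ 5 = x := by
    have : x ^ (3 ^ 5) = (x ^ 121) ^ 2 * x := by ring
    rw [this, h.pow_eq f]; ring
  unfold zt
  rw [← pow_mul, ← pow_succ]
  fin_cases i
  · rfl
  · rfl
  · rfl
  · rfl
  · simpa using h1

/-- the eigenbasis (rows) -/
noncomputable def Ym (x : k) : Matrix (Fin 5) (Fin 5) k := Matrix.vandermonde (zt x) * mC.map f

theorem Ym_mul {x : k} (h : Root x) : Ym f x * mSi.map f = Matrix.diagonal (zt x) * Ym f x := by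
  have h1 : Matrix.vandermonde (zt x) * mK.map f = Matrix.diagonal (zt x) * Matrix.vandermonde (zt x) := by
    ext i j
    rw [Matrix.mul_apply, Matrix.diagonal_mul, Matrix.vandermonde_apply]
    have h2 := (show Root (zt x i) from h.pow3 i).vec f j
    simpa only [Matrix.vandermonde_apply, Matrix.map_apply] using h2
  have h3 : mC.map f * mSi.map f = mK.map f * mC.map f := by
    rw [← Matrix.map_mul, ← Matrix.map_mul, mC_mSi]
  rw [Ym, Matrix.mul_assoc, h3, ← Matrix.mul_assoc, h1, Matrix.mul_assoc]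

theorem Ym_det {x : k} (h : Root x) : (Ym f x).det ≠ 0 := by
  rw [Ym, Matrix.det_mul]
  refine mul_ne_zero (Matrix.det_vandermonde_ne_zero_iff.2 (zt_inj f h)) ?_
  have h1 : (mC.map f * mB.map f).det = 1 := by
    rw [← Matrix.map_mul, mC_mB, Matrix.map_one f (map_zero f) (map_one f), Matrix.det_one]
  rw [Matrix.det_mul] at h1
  exact left_ne_zero_of_mul_eq_one h1

theorem Ym_cube {x : k} (h : Root x) (i j : Fin 5) : Ym f x i j ^ 3 = Ym f x (i + 1) j := by
  have hf : (frobenius k 3).comp f = f := Subsingleton.elim _ _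
  have h1 : ∀ a : ZMod 3, f a ^ 3 = f a := fun a => by
    have := congrArg (fun g : ZMod 3 →+* k => g a) hf
    simpa [frobenius_def] using this
  rw [Ym, Matrix.mul_apply, Matrix.mul_apply]
  have h2 : (∑ l, Matrix.vandermonde (zt x) i l * mC.map f l j) ^ 3 =
      ∑ l, (Matrix.vandermonde (zt x) i l * mC.map f l j) ^ 3 := by
    rw [← frobenius_def, map_sum]
    rfl
  rw [h2]
  refine Finset.sum_congr rfl fun l _ => ?_
  rw [mul_pow, Matrix.map_apply, h1, Matrix.vandermonde_apply, Matrix.vandermonde_apply, ← pow_mul, mul_comm (l : ℕ) 3,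
    pow_mul, zt_cube f h]

/-- the scaling -/
noncomputable def sc (x : k) (i : Fin 5) : k := if i = 0 then (Ym f x).det⁻¹ else 1

theorem sc_ne {x : k} (h : Root x) (i : Fin 5) : sc f x i ≠ 0 := by
  unfold sc
  split_ifs
  · exact inv_ne_zero (Ym_det f h)
  · exact one_ne_zero

/-- the normalised eigenbasis -/
noncomputable def Wm (x : k) : Matrix (Fin 5) (Fin 5) k := Matrix.diagonal (sc f x) * Ym f x

theorem Wm_det {x : k} (h : Root x) : (Wm f x).det = 1 := by
  rw [Wm, Matrix.det_mul, Matrix.det_diagonal, Fin.prod_univ_five]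
  simp [sc, Ym_det f h]

theorem Wm_mul {x : k} (h : Root x) : Wm f x * mSi.map f = Matrix.diagonal (zt x) * Wm f x := by
  rw [Wm, Matrix.mul_assoc, Ym_mul f h, ← Matrix.mul_assoc, ← Matrix.mul_assoc, Matrix.diagonal_mul_diagonal,
    Matrix.diagonal_mul_diagonal]
  congr 2
  funext i
  exact mul_comm _ _

/-- the monomial coefficients -/
noncomputable def cf (x : k) (j : Fin 5) : k := sc f x (j + 1) * (sc f x j ^ 3)⁻¹

theorem cf_ne {x : k} (h : Root x) (j : Fin 5) : cf f x j ≠ 0 :=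
  mul_ne_zero (sc_ne f h _) (inv_ne_zero (pow_ne_zero _ (sc_ne f h _)))

/-- `Z⁻¹` as an element of `SL₅` -/
noncomputable def Ws {x : k} (h : Root x) : SpecialLinearGroup (Fin 5) k := ⟨Wm f x, Wm_det f h⟩

theorem Ws_mul {x : k} (h : Root x) :
    (Ws f h * SpecialLinearGroup.map f Si * (Ws f h)⁻¹ : SpecialLinearGroup (Fin 5) k).1 = Matrix.diagonal (zt x) := by
  rw [Matrix.SpecialLinearGroup.coe_mul, Matrix.SpecialLinearGroup.coe_mul]
  have h1 : (Ws f h).1 * (SpecialLinearGroup.map f Si).1 = Matrix.diagonal (zt x) * (Ws f h).1 := Wm_mul f h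
  rw [h1, Matrix.mul_assoc, ← Matrix.SpecialLinearGroup.coe_mul, mul_inv_cancel, Matrix.SpecialLinearGroup.coe_one,
    Matrix.mul_one]

theorem Ws_frob {x : k} (h : Root x) :
    (Ws f h * (SpecialLinearGroup.map (frobenius k 3) (Ws f h))⁻¹ : SpecialLinearGroup (Fin 5) k).1 =
      Matrix.of fun i j => if i = j + 1 then cf f x j else 0 := by
  set N : Matrix (Fin 5) (Fin 5) k := Matrix.of fun i j => if i = j + 1 then cf f x j else 0 with hN
  set F := SpecialLinearGroup.map (frobenius k 3) (Ws f h) with hF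
  have h1 : N * F.1 = (Ws f h).1 := by
    ext i j
    rw [Matrix.mul_apply, Finset.sum_eq_single (i - 1)]
    · rw [hN, Matrix.of_apply, if_pos (sub_add_cancel i 1).symm]
      show cf f x (i - 1) * (Wm f x (i - 1) j) ^ 3 = Wm f x i j
      rw [Wm, Matrix.diagonal_mul, Matrix.diagonal_mul, mul_pow, Ym_cube f h, sub_add_cancel, cf, sub_add_cancel]
      have h2 := sc_ne f h (i - 1)
      field_simp
    · intro l _ hl
      rw [hN, Matrix.of_apply, if_neg, zero_mul]
      intro hil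
      exact hl (by rw [hil, add_sub_cancel_right])
    · intro h
      exact absurd (Finset.mem_univ _) h
  rw [Matrix.SpecialLinearGroup.coe_mul, ← h1, Matrix.mul_assoc, ← Matrix.SpecialLinearGroup.coe_mul, mul_inv_cancel,
    Matrix.SpecialLinearGroup.coe_one, Matrix.mul_one]

/-- **The Singer element over the algebraic closure.** -/
theorem singer [IsAlgClosed k] : ∃ (Z : SpecialLinearGroup (Fin 5) k) (ζ : k) (c : Fin 5 → k),
    IsPrimitiveRoot ζ 121 ∧
    (Z⁻¹ * SpecialLinearGroup.map f Si * Z : SpecialLinearGroup (Fin 5) k).1 =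
      Matrix.diagonal (fun i : Fin 5 => ζ ^ 3 ^ (i : ℕ)) ∧
    (∀ j, c j ≠ 0) ∧
    (Z⁻¹ * SpecialLinearGroup.map (frobenius k 3) Z : SpecialLinearGroup (Fin 5) k).1 =
      Matrix.of fun i j => if i = j + 1 then c j else 0 := by
  obtain ⟨x, h⟩ := exists_root (k := k)
  refine ⟨(Ws f h)⁻¹, x, cf f x, h.prim f, ?_, cf_ne f h, ?_⟩
  · rw [inv_inv]
    exact Ws_mul f h
  · have h1 := Ws_frob f h
    rw [← map_inv] at h1
    rw [inv_inv]
    exact h1

end

end Cfsg.Agent.H518.E83
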